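import Cfsg.Agent.FSim.Crit
import Cfsg.Agent.Golay.Fus
import Cfsg.Agent.Leech.Simple
import Cfsg.Agent.Leech.OutGen

/-!
# FSim/McL: the `2`-fusion system of the McLaughlin group
-/

set_option autoImplicit false

namespace Cfsg.Agent.FSim

open Subgroup MulAction Cfsg.Agent.Leech Cfsg.Agent.Golay

theorem le_m24 : syl22 ≤ M24 := inf_le_left.trans (inf_le_left.trans inf_le_left)

theorem m22_le : M22s.map permHom ≤ stabilizer Co0 uu ⊓ stabilizer Co0 vv ⊓ stabilizer Co0 (-hh) := by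
  rintro _ ⟨σ, hσ, rfl⟩
  refine ⟨⟨perm_fix hσ ?_, perm_fix hσ ?_⟩, perm_fix hσ ?_⟩
  · intro p q a _ c _; simp [uu_apply, a, c]
  · intro p q a b c d; simp [vv_apply, a, b, c, d]
  · intro p q a b c d; simp [hh_apply, a, b, c, d]

theorem card_k22 : Nat.card ↥(stabilizer Co0 uu ⊓ stabilizer Co0 vv ⊓ stabilizer Co0 (-hh)) = 443520 :=
  card_inf_stab (C2.stab nh_mem') tr2025 card_mcl n2025 (by norm_num) (by norm_num)

/-- the Sylow subgroup of `M22` inside `McL` -/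
noncomputable def φm : syl22 →* ↥(stabilizer Co0 uu ⊓ stabilizer Co0 vv) :=
  (permHom.comp (inclusion le_m24)).codRestrict _ fun x => (m22_le ⟨_, ⟨x.2.1.1.2, x.2.1.2⟩, rfl⟩).1

theorem φm_inj : Function.Injective φm := fun _ _ h =>
  inclusion_injective le_m24 (permHom_inj (congrArg Subtype.val h))

theorem not_fix {y0 y : leechLattice} {c : ℤ} {m N : ℕ} (hy : y ∈ C3 uu 16 vv 0 (-hh) c)
    (h : ∀ y ∈ C3 uu 16 vv 0 (-hh) c, ∃ g ∈ stabilizer Co0 uu ⊓ stabilizer Co0 vv ⊓ stabilizer Co0 (-hh), g • y0 = y)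
    (hm : (C3 uu 16 vv 0 (-hh) c).ncard = m) (h0 : m ≠ 0) (hN : 443520 = m * N) (h2 : ¬ 128 ∣ N) :
    ¬ ∀ x, (φm x : Co0) • y = y := fun hx => by
  obtain ⟨k, hk, rfl⟩ := h y hy
  have := card_inf_stab (C3.stab hy) (fun y hy => by
    obtain ⟨l, hl, rfl⟩ := h y hy
    exact ⟨l * k⁻¹, mul_mem hl (inv_mem hk), by simp [mul_smul]⟩) card_k22 hm h0 hN
  refine h2 (card_syl22 ▸ this ▸ card_dvd_of_injective (((Subgroup.subtype _).comp φm).codRestrict _ fun x =>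
    ⟨m22_le ⟨_, ⟨x.2.1.1.2, x.2.1.2⟩, rfl⟩, hx x⟩) fun _ _ e => φm_inj (Subtype.ext (Subtype.ext_iff.mp e :)))

theorem norm_mcl {g : ↥(stabilizer Co0 uu ⊓ stabilizer Co0 vv)} (hg : g ∈ normalizer (φm.range : Set _)) :
    g ∈ φm.range := by
  have h1 : ∀ x, (φm x : Co0) • (g : Co0) • (-hh) = (g : Co0) • (-hh) := fun x => by
    obtain ⟨y, e⟩ := conj_mem' hg ⟨x, rfl⟩
    have := (m22_le ⟨inclusion le_m24 y, ⟨y.2.1.1.2, y.2.1.2⟩, rfl⟩).2
    change (φm y : Co0) • (-hh) = -hh at this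
    rw [e] at this
    simpa [mul_smul, inv_smul_eq_iff] using this
  have h2 := C2.stab nh_mem' g g.2
  have h3 : (g : Co0) ∈ M22s.map permHom := by
    rw [eq_of_le_of_card_ge m22_le (by
      rw [card_k22, card_map_of_injective permHom_inj]; exact (S0378.result _ _ (by simp)).ge)]
    refine ⟨g.2, ?_⟩
    rcases dot2025 norm_uu vv_mem nh_mem' h2 with h | h | h | h
    exacts [h, absurd h1 (not_fix ⟨h2, h⟩ tr330 n330 (N := 1344) (by norm_num) rfl (by norm_num)),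
      absurd h1 (not_fix ⟨h2, h⟩ tr462 n462 (N := 960) (by norm_num) rfl (by norm_num)),
      absurd h1 (not_fix ⟨h2, h⟩ tr1232 n1232 (N := 360) (by norm_num) rfl (by norm_num))]
  obtain ⟨σ, hσ, e⟩ := h3
  refine ⟨⟨σ, norm_syl22 ⟨⟨σ.2, hσ.1⟩, hσ.2⟩ fun x hx => ?_⟩, Subtype.ext e⟩
  obtain ⟨y, e'⟩ := conj_mem hg ⟨⟨x, hx⟩, rfl⟩
  have : inclusion le_m24 y = σ * ⟨x, le_m24 hx⟩ * σ⁻¹ := permHom_inj (by
    rw [map_mul, map_mul, map_inv, e]; exact congrArg Subtype.val e')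
  exact (show (y : P24) = σ * x * (σ : P24)⁻¹ from Subtype.ext_iff.mp this) ▸ y.2

theorem simple_mcl {G : Type*} [Group G] (hG : Spor.IsoMcL G) (S : Sylow 2 G) :
    (groupFusionSystem (S : Subgroup G)).IsSimple 2 := by
  obtain ⟨e⟩ := hG
  haveI : Finite ↥(stabilizer Co0 uu ⊓ stabilizer Co0 vv) := Nat.finite_of_card_ne_zero (card_mcl ▸ by norm_num)
  have hz := (test_syl22 (cs := [976448692869377735270425038196672544]) (by decide +kernel)) _ (List.mem_singleton_self _)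
  obtain ⟨z, hz, ez⟩ := hz
  have ez' : tp 976448692869377735270425038196672544 = z := by rw [← ez, tp_pc]
  refine simple_of_hom φm_inj (k := 6) (m := 7016625) card_syl22 card_mcl (by norm_num)
    (fun S hS g hg => self_le_good S (hS ▸ norm_mcl (hS ▸ hg))) (z := ⟨z, hz⟩)
    (fun x hx => (center_syl22 x x.2 fun s hs => congrArg Subtype.val (hx ⟨s, hs⟩)).imp Subtype.ext
      fun h => Subtype.ext (h.trans ez')) (fun T h1 h2 x _ => ?_)
    ((subEquiv _ _ (fun g => ?_) (inf_le_left.trans inf_le_left)).trans e.symm) S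
  · obtain ⟨y, hy, e⟩ := closed_syl22 (T.map syl22.subtype) (ez' ▸ ⟨_, h1, rfl⟩) (by
      rintro _ ⟨x, hx, rfl⟩ g hg h
      refine ⟨⟨_, h⟩, h2 x hx _ ⟨permHom ⟨g, hg.1.1⟩, (m22_le ⟨_, ⟨hg.1.2, hg.2⟩, rfl⟩).1⟩ (Subtype.ext ?_), rfl⟩
      exact ((map_mul permHom _ _).trans (congrArg₂ _ (map_mul permHom _ _) (map_inv permHom _))).symm) (map_subtype_le _) x.2
    exact Subtype.ext e ▸ hy
  · rw [uu, stab_neg]
    exact ⟨fun h => ⟨⟨g.2, h.1⟩, h.2⟩, fun h => ⟨h.1.2, h.2⟩⟩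

end Cfsg.Agent.FSim
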